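import Cfsg.Agent.Local.IsolatedP
import Cfsg.Agent.Solv.CyclicP
import Cfsg.Agent.Solv.MinNormal
import Cfsg.Agent.Local.InvolCount
import Cfsg.Agent.Trans.PNilpMore
import Cfsg.Agent.Perm.Derange

/-! Groups whose Sylow subgroups of odd order are cyclic. -/

set_option autoImplicit false

namespace Cfsg.Lib.Rank2

open Cfsg Subgroup Cfsg.Lib.Trans
open scoped commutatorElement

/-- All subgroups of odd prime power order are cyclic. -/
def OddCyc (G : Type*) [Group G] : Prop :=
  ∀ p : ℕ, p.Prime → p ≠ 2 → ∀ P : Subgroup G, IsPGroup p P → IsCyclic P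

variable {G G' : Type*} [Group G] [Group G']

theorem OddCyc.of_sylow (h : ∀ p : ℕ, p.Prime → p ≠ 2 → ∀ P : Sylow p G, IsCyclic P) :
    OddCyc G := fun p hp h2 P hP => by
  obtain ⟨S, hS⟩ := hP.exists_le_sylow
  have : IsCyclic (S : Subgroup G) := h p hp h2 S
  exact isCyclic_of_le hS

theorem OddCyc.of_injective (h : OddCyc G) (f : G' →* G) (hf : Function.Injective f) :
    OddCyc G' := fun p hp h2 P hP =>
  (P.equivMapOfInjective f hf).isCyclic.2 (h p hp h2 _ (hP.map f))

theorem OddCyc.subgroup (h : OddCyc G) (H : Subgroup G) : OddCyc H :=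
  h.of_injective _ H.subtype_injective

theorem OddCyc.of_surjective [Finite G] (h : OddCyc G) (f : G →* G')
    (hf : Function.Surjective f) : OddCyc G' := OddCyc.of_sylow fun p hp h2 P => by
  have := Fact.mk hp
  obtain ⟨S, rfl⟩ := Sylow.mapSurjective_surjective hf p P
  have := h p hp h2 S S.isPGroup'
  exact isCyclic_of_surjective (f.subgroupMap S) (f.subgroupMap_surjective S)

theorem OddCyc.isZGroup [Finite G] (h : OddCyc G) (hG : (Nat.card G).Coprime 2) : IsZGroup G :=
  ⟨fun p hp P => by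
    rcases eq_or_ne p 2 with rfl | h2
    · have : (P : Subgroup G) = ⊥ := (isSylowIn_top P).eq_bot_iff.2
        (by rw [card_top]; exact coprime_iff_not_dvd'.1 hG)
      have : Subsingleton P := ⟨fun a b => Subtype.ext (((mem_bot.1 (this.le a.2)) : a.1 = 1).trans
        (mem_bot.1 (this.le b.2)).symm)⟩
      exact isCyclic_of_subsingleton
    · exact h p hp h2 P P.isPGroup'⟩

/-- Commuting elements of the same odd prime order generate the same subgroup. -/
theorem OddCyc.mem_zpowers [Finite G] (h : OddCyc G) {p : ℕ} (hp : p.Prime) (h2 : p ≠ 2)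
    {x y : G} (hx : orderOf x = p) (hy : y ^ p = 1) (hc : Commute x y) : y ∈ zpowers x := by
  have := Fact.mk hp
  have h1 : IsPGroup p (zpowers x) := .of_card (n := 1) (by rw [Nat.card_zpowers, hx, pow_one])
  have h3 : IsPGroup p (zpowers y) := by
    rintro ⟨_, k, rfl⟩
    exact ⟨1, Subtype.ext (by
      rw [pow_one, coe_pow, ← zpow_natCast, ← zpow_mul, mul_comm, zpow_mul, zpow_natCast, hy,
        one_zpow, coe_one])⟩
  have := h p hp h2 _ (h1.to_sup_of_normal_right' h3 (zpowers_le.2 (centralizer_le_normalizer _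
    (mem_centralizer_iff.2 (by rintro _ ⟨k, rfl⟩; exact (hc.symm.zpow_left k).eq)))))
  exact Solv.PG.mem_of_pow_card_eq_one le_sup_left (mem_sup_right (Subgroup.mem_zpowers y))
    (by rw [Nat.card_zpowers, hx, hy])

section ZGroup

variable [Finite G] (N : Subgroup G) [N.Normal] [IsZGroup N]

theorem commutator_le_centralizer_of_isZGroup :
    commutator G ≤ centralizer ((⁅N, N⁆ : Subgroup G) : Set G) := by
  have : IsCyclic (⁅N, N⁆ : Subgroup G) := by
    rw [← map_subtype_commutator]
    exact ((commutator N).equivMapOfInjective _ N.subtype_injective).isCyclic.1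
      (IsZGroup.isCyclic_commutator N)
  exact Solv.PG.commutator_le_centralizer_of_isCyclic _

theorem commutator_commutator_le_of_isZGroup : ⁅commutator G, N⁆ ≤ ⁅N, N⁆ := by
  let f := QuotientGroup.mk' (⁅N, N⁆ : Subgroup G)
  have hf : Function.Surjective f := QuotientGroup.mk'_surjective _
  have : (N.map f).Normal := Normal.map ‹_› f hf
  have : IsZGroup (N.map f) := .of_surjective (f.subgroupMap_surjective N)
  have h1 : ⁅N.map f, N.map f⁆ = ⊥ := by
    rw [← map_commutator, Subgroup.map_eq_bot_iff, QuotientGroup.ker_mk']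
  have : Group.IsNilpotent (N.map f) := by
    have := le_centralizer_iff_isMulCommutative.1 (commutator_eq_bot_iff_le_centralizer.1 h1)
    open scoped IsMulCommutative in exact CommGroup.isNilpotent (G := N.map f)
  have h2 := commutator_eq_bot_iff_le_centralizer.2
    (Solv.PG.commutator_le_centralizer_of_isCyclic (N.map f))
  rwa [_root_.commutator_def, ← map_top_of_surjective f hf, ← map_commutator, ← map_commutator,
    Subgroup.map_eq_bot_iff, QuotientGroup.ker_mk'] at h2

theorem mem_centralizer_of_isZGroup {x : G} (hx : x ∈ commutator G)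
    (hc : (orderOf x).Coprime (Nat.card N)) : x ∈ centralizer (N : Set G) := by
  refine mem_centralizer_iff.2 fun n hn => ?_
  have h1 : ⁅x, n⁆ ∈ ⁅N, N⁆ :=
    commutator_commutator_le_of_isZGroup N (commutator_mem_commutator hx hn)
  have h2 : Commute ⁅x, n⁆ x :=
    mem_centralizer_iff.1 (commutator_le_centralizer_of_isZGroup N hx) _ h1
  have h3 : ∀ k : ℕ, x ^ k * n = ⁅x, n⁆ ^ k * n * x ^ k := fun k => by
    induction k with
    | zero => simp
    | succ k ih =>
      rw [pow_succ' x, mul_assoc, ih, ← mul_assoc, ← mul_assoc, ← (h2.pow_left k).eq, pow_succ,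
        commutatorElement_def]
      group
  have h4 := h3 (orderOf x)
  rw [pow_orderOf_eq_one, one_mul, mul_one, right_eq_mul] at h4
  have h5 : ⁅x, n⁆ = 1 := orderOf_eq_one_iff.1 (Nat.eq_one_of_dvd_coprimes hc
    (orderOf_dvd_of_pow_eq_one h4) (orderOf_dvd_natCard _ (commutator_le_left _ _ h1)))
  exact (commutatorElement_eq_one_iff_mul_comm.1 h5).symm

theorem le_center_of_isZGroup [Group.IsPerfect G] : N ≤ center G := by
  have h0 : commutator G = ⊤ := Group.IsPerfect.commutator_eq_top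
  have h1 : ⁅⁅(⊤ : Subgroup G), N⁆, (⊤ : Subgroup G)⁆ = ⊥ := by
    rw [commutator_comm, commutator_eq_bot_iff_le_centralizer]
    exact (h0.ge.trans (commutator_le_centralizer_of_isZGroup N)).trans
      (centralizer_le (h0 ▸ commutator_commutator_le_of_isZGroup N))
  have h2 := commutator_commutator_eq_bot_of_rotate h1 (by rwa [commutator_comm N])
  rw [← _root_.commutator_def, h0, commutator_comm, commutator_eq_bot_iff_le_centralizer, coe_top,
    centralizer_univ] at h2
  exact h2

end ZGroup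

theorem exists_invol_comm [Finite G] {T : Subgroup G} (hT : IsPGroup 2 T) (h : T ≠ ⊥) :
    ∃ t ∈ T, orderOf t = 2 ∧ ∀ s ∈ T, s * t = t * s := by
  have := (nontrivial_iff_ne_bot T).2 h
  have := hT.center_nontrivial
  obtain ⟨t, ht⟩ := exists_prime_orderOf_dvd_card' (G := center T) 2
    (((hT.to_subgroup _).nontrivial_iff_card.1 this).elim fun n hn => hn.2 ▸ dvd_pow_self 2 hn.1.ne')
  exact ⟨t.1.1, t.1.2, by rw [orderOf_coe, orderOf_coe, ht], fun s hs =>
    congrArg Subtype.val (mem_center_iff.1 t.2 ⟨s, hs⟩)⟩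

theorem orderOf_mul_eq_two {t t' : G} (ht : orderOf t = 2) (ht' : orderOf t' = 2) (hne : t ≠ t')
    (hc : t * t' = t' * t) : orderOf (t * t') = 2 :=
  orderOf_eq_prime (by rw [Commute.mul_pow hc, ← ht, pow_orderOf_eq_one, ht, ← ht',
    pow_orderOf_eq_one, mul_one]) fun h => hne (by
      rw [eq_inv_of_mul_eq_one_left h, inv_eq_iff_mul_eq_one, ← pow_two, ← ht',
        pow_orderOf_eq_one])

theorem four_cases_of_card_le [Finite G] {T : Subgroup G} (hT : Nat.card T ≤ 4) {t t' s : G}
    (h1 : t ∈ T) (h2 : t' ∈ T) (hs : s ∈ T) (ht : orderOf t = 2) (ht' : orderOf t' = 2)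
    (hne : t ≠ t') (hc : t * t' = t' * t) : s = 1 ∨ s = t ∨ s = t' ∨ s = t * t' := by
  by_contra! h
  have h3 : t ≠ 1 := fun h => by simp [h] at ht
  have h4 : t' ≠ 1 := fun h => by simp [h] at ht'
  have h5 : t * t' ≠ 1 := fun h => by simpa [h] using orderOf_mul_eq_two ht ht' hne hc
  have h6 := Set.ncard_le_ncard (show ({s, 1, t, t', t * t'} : Set G) ⊆ T by
    rintro _ (rfl | rfl | rfl | rfl | rfl)
    exacts [hs, T.one_mem, h1, h2, T.mul_mem h1 h2])
  rw [Set.ncard_insert_of_notMem (by simp [h]), Set.ncard_insert_of_notMem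
    (by simp [h3.symm, h4.symm, h5.symm]), Set.ncard_insert_of_notMem (by simp [hne, h4]),
    Set.ncard_pair (by simp [h3]), ← Nat.card_coe_set_eq] at h6
  exact absurd (h6.trans hT) (by norm_num)

/-- A central `r`-element, no involution centralized by a Sylow `r`-subgroup. -/
theorem OddCyc.three_invol [Finite G] (h : OddCyc G) {r : ℕ} [hr : Fact r.Prime] (h2 : r ≠ 2)
    {x : G} (hx : x ∈ center G) (hx1 : x ≠ 1) (hxr : IsPGroup r (zpowers x))
    (hz : 2 ∣ Nat.card G)
    (ha : ∀ (P : Sylow r G) (t : G), orderOf t = 2 → ∃ g ∈ (P : Subgroup G), g * t ≠ t * g)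
    (hb : ∀ t t' : G, orderOf t = 2 → orderOf t' = 2 → t ≠ t' → t * t' = t' * t →
      ¬ 8 ∣ Nat.card (centralizer ({t} : Set G) ⊓ centralizer ({t'} : Set G) : Subgroup G)) :
    r = 3 ∧ ∃ t t' : G, orderOf t = 2 ∧ orderOf t' = 2 ∧ t ≠ t' ∧ t * t' = t' * t ∧
      ∀ s, orderOf s = 2 → s = t ∨ s = t' ∨ s = t * t' := by
  obtain ⟨P⟩ : Nonempty (Sylow r G) := inferInstance
  have : (zpowers x).Normal := ⟨fun y hy g => by
    rwa [mem_center_iff.1 (zpowers_le.2 hx hy) g, mul_inv_cancel_right]⟩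
  have hW := hasNormalPComplement_iff_coprime.1 (Local.Iso.hasNormalPComplement_of_cyclic P
    (h r hr.out h2 _ P.isPGroup') (hxr.le_sylow_of_normal P (Subgroup.mem_zpowers x)) hx1
    fun g _ => mem_centralizer_singleton_iff.2 (mem_center_iff.1 hx g))
  obtain ⟨T⟩ : Nonempty (Sylow 2 G) := inferInstance
  have hr2 : (2 : ℕ).Coprime r := (Nat.coprime_primes Nat.prime_two hr.out).2 h2.symm
  obtain ⟨k, hk⟩ := T.isPGroup'.exists_card_eq
  have hTW : (T : Subgroup G) ≤ pResidual r G :=
    le_pResidual_of_coprime (hk ▸ Nat.Coprime.pow_left k hr2)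
  obtain ⟨R, hR⟩ := exists_isSylowIn (p := r) (normalizer ((T : Subgroup G) : Set G))
  obtain ⟨R, rfl⟩ := (hR.trans le_top fun hd => coprime_iff_not_dvd'.1 hW (hd.trans (by
    rw [relIndex_top_right]
    exact (dvd_of_eq (Solv.index_eq_relIndex_of_sup_eq_top (T.normalizer_sup_eq_top' hTW))).trans
      (relIndex_dvd_card _ _)))).exists_sylow_eq
  obtain ⟨t, htT, ht, htc⟩ := exists_invol_comm T.isPGroup' fun h =>
    (isSylowIn_top T).eq_bot_iff.1 h (by rwa [card_top])
  obtain ⟨g, hg, hgt⟩ := ha R t ht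
  have hN : ∀ s, s ∈ (T : Subgroup G) ↔ g * s * g⁻¹ ∈ (T : Subgroup G) :=
    mem_normalizer_iff.1 (hR.le hg)
  have ht' : orderOf (g * t * g⁻¹) = 2 := ((MulAut.conj g).orderOf_eq t).trans ht
  have hne : t ≠ g * t * g⁻¹ := fun h => hgt (eq_mul_inv_iff_mul_eq.1 h).symm
  have hc := (htc _ ((hN t).1 htT)).symm
  have h4 : Nat.card (T : Subgroup G) ≤ 4 := by
    have h8 := mt (dvd_trans · (card_dvd_of_le (le_inf (fun s hs =>
      mem_centralizer_singleton_iff.2 (htc s hs)) fun s hs => mem_centralizer_singleton_iff.2 (by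
        have := htc (g⁻¹ * s * g) ((hN _).2 (by simpa [mul_assoc] using hs))
        calc _ = g * (g⁻¹ * s * g * t) * g⁻¹ := by group
          _ = _ := by rw [this]; group)))) (hb _ _ ht ht' hne hc)
    rw [hk] at h8 ⊢
    exact Nat.pow_le_pow_right (n := 2) (j := 2) two_pos
      (by by_contra h; exact h8 (pow_dvd_pow 2 (show 3 ≤ k by omega)))
  have hT : ∀ s ∈ (T : Subgroup G), _ := fun s hs =>
    four_cases_of_card_le h4 htT ((hN t).1 htT) hs ht ht' hne hc
  obtain ⟨n, hn⟩ := IsPGroup.iff_orderOf.1 R.isPGroup' ⟨g, hg⟩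
  rw [orderOf_mk] at hn
  have hg' : ∀ m : ℕ, m.Coprime r → ¬ Commute (g ^ m) t := fun m hm hgm => by
    obtain ⟨l, hl⟩ := exists_pow_eq_self_of_coprime (x := g) (hn ▸ hm.pow_right n)
    exact hgt (hl ▸ hgm.pow_left l)
  have htt : t * t = 1 := by rw [← pow_two, ← ht, pow_orderOf_eq_one]
  have h5 : g * (g * t * g⁻¹) * g⁻¹ = t * (g * t * g⁻¹) := by
    rcases hT _ ((hN _).1 ((hN t).1 htT)) with h | h | h | h
    · simp [show t = 1 by simpa using h] at ht
    · exact absurd (by
        rw [Commute, SemiconjBy]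
        calc _ = g * (g * t * g⁻¹) * g⁻¹ * g ^ 2 := by simp [pow_two, mul_assoc]
          _ = _ := by rw [h]) (hg' 2 hr2)
    · exact absurd (by simpa using h.symm) hne
    · exact h
  have h6 : g * (t * (g * t * g⁻¹)) * g⁻¹ = t := by
    calc _ = g * t * g⁻¹ * (g * (g * t * g⁻¹) * g⁻¹) := by group
      _ = t * (g * (t * t) * g⁻¹) := by rw [h5, ← mul_assoc, ← hc]; group
      _ = t := by rw [htt]; group
  obtain rfl : r = 3 := by
    by_contra h3
    refine hg' 3 ((Nat.coprime_primes Nat.prime_three hr.out).2 (Ne.symm h3)) ?_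
    rw [Commute, SemiconjBy]
    calc _ = g * (g * (g * t * g⁻¹) * g⁻¹) * g⁻¹ * g ^ 3 := by simp [pow_succ, mul_assoc]
      _ = _ := by rw [h5, h6]
  refine ⟨rfl, t, _, ht, ht', hne, hc, fun s hs => ?_⟩
  have h7 : t * (g * t * g⁻¹) ∈ commutator G := by
    have := commutator_mem_commutator (mem_top t) (mem_top g)
    rwa [commutatorElement_def, inv_eq_of_mul_eq_one_left htt, mul_assoc, mul_assoc,
      ← mul_assoc g] at this
  have h8 : t ∈ commutator G := h6 ▸ Normal.conj_mem inferInstance _ h7 g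
  have h9 : (T : Subgroup G) ≤ commutator G := fun s hs => by
    rcases hT s hs with rfl | rfl | rfl | rfl
    exacts [one_mem _, h8, Normal.conj_mem inferInstance _ h8 g, h7]
  have hO := hasNormalPComplement_iff_coprime.1 (hasNormalPComplement_of_index_frattini_le
    (T.subtype hTW) (d := 2) (fun Q hQ => (Nat.le_of_dvd Nat.card_pos (index_dvd_card _)).trans
      ((Trans.card_le_of_le hQ).trans ((Nat.card_congr (subgroupOfEquivOfLe hTW).toEquiv).trans_le h4)))
    fun q hq _ hd j h1 h2 hj => by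
      interval_cases j
      · exact hq.one_lt.ne' (Nat.dvd_one.1 hj)
      · exact coprime_iff_not_dvd'.1 hW
          ((Nat.prime_dvd_prime_iff_eq hq Nat.prime_three).1 hj ▸ hd))
  rw [← card_map_of_injective (pResidual 3 G).subtype_injective] at hO
  have := (h.subgroup _).isZGroup hO
  have hsW : s ∈ pResidual 3 G := mem_pResidual_of_coprime (by rw [hs]; norm_num)
  obtain ⟨o, ho, τ, hτ, e⟩ := mem_sup_of_normal_left.1
    ((pResidual_sup_sylow (T.subtype hTW)).ge (mem_top ⟨s, hsW⟩))
  obtain rfl : o.1 * τ.1 = s := congrArg Subtype.val e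
  have ho' : o.1 ∈ (pResidual 2 (pResidual 3 G)).map (pResidual 3 G).subtype := ⟨o, ho, rfl⟩
  have hτ2 : τ.1 ^ 2 = 1 := by
    rcases hT τ.1 hτ with h | h | h | h <;> rw [h]
    · simp
    · rw [pow_two, htt]
    · rw [← ht', pow_orderOf_eq_one]
    · rw [← orderOf_mul_eq_two ht ht' hne hc, pow_orderOf_eq_one]
  have h10 : Commute o.1 τ.1 := mem_centralizer_iff.1 (mem_centralizer_of_isZGroup _ (h9 hτ)
    (hO.symm.coprime_dvd_left (orderOf_dvd_of_pow_eq_one hτ2))) _ ho'
  have h11 := pow_orderOf_eq_one (o.1 * τ.1)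
  rw [hs, h10.mul_pow, hτ2, mul_one] at h11
  have h12 : o.1 = 1 := orderOf_eq_one_iff.1 (Nat.eq_one_of_dvd_coprimes hO
    (orderOf_dvd_natCard _ ho') (orderOf_dvd_of_pow_eq_one h11))
  rw [h12, one_mul] at hs ⊢
  exact (hT τ.1 hτ).resolve_left fun h => by rw [h, orderOf_one] at hs; omega

/-- One class of involutions, and `8` does not divide the order of the centralizer of a
four-group. -/
theorem OddCyc.index_invol [Finite G] (h : OddCyc G) {z : G} (hz : orderOf z = 2)
    (hone : ∀ t : G, orderOf t = 2 → IsConj z t) {n : ℕ} (hn : ¬ 8 ∣ n)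
    (hb : ∀ t t' : G, orderOf t = 2 → orderOf t' = 2 → t ≠ t' → t * t' = t' * t →
      Nat.card (centralizer ({t} : Set G) ⊓ centralizer ({t'} : Set G) : Subgroup G) = n)
    {r : ℕ} [hr : Fact r.Prime] (h2 : r ≠ 2) (h3 : r ∣ Nat.card (centralizer ({z} : Set G)))
    (h4 : r ∣ (centralizer ({z} : Set G)).index) :
    r = 3 ∧ (Nat.card (centralizer ({z} : Set G))).factorization 3 ≤ n.factorization 3 ∧
      (centralizer ({z} : Set G)).index % 9 = 3 := by
  obtain ⟨P₀, hP₀⟩ := exists_isSylowIn (p := r) (centralizer ({z} : Set G))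
  have hle : ∀ t : G, orderOf t = 2 → ∀ Q : Subgroup G, IsPGroup r Q →
      Q ≤ centralizer ({t} : Set G) → Nat.card Q ∣ Nat.card P₀ := fun t ht Q hQ hQt => by
    obtain ⟨k, hk⟩ := hQ.exists_card_eq
    obtain ⟨g, rfl⟩ := isConj_iff.1 (hone t ht)
    have := card_dvd_of_le hQt
    rw [← Set.image_singleton (f := fun a => g * a * g⁻¹), ← cj_centralizer_set, card_cj,
      hk] at this
    rw [hP₀.card_eq, hk]
    exact pow_dvd_pow _ ((hr.out.pow_dvd_iff_le_factorization Nat.card_pos.ne').1 this)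
  obtain ⟨P, hP⟩ := hP₀.isPGroup.exists_le_sylow
  have := h r hr.out h2 _ P.isPGroup'
  have hlt : P₀ < P := hP.lt_of_ne fun hd =>
    P.not_dvd_index (h4.trans (index_dvd_of_le (hd.ge.trans hP₀.le)))
  let D := centralizer (P₀ : Set G)
  have hPD : (P : Subgroup G) ≤ D :=
    (le_centralizer_iff_isMulCommutative.2 inferInstance).trans (centralizer_le hP)
  obtain ⟨x, hx, hx1⟩ := (bot_or_exists_ne_one P₀).resolve_left
    fun h => hP₀.eq_bot_iff.1 h h3
  have hzD : z ∈ D := mem_centralizer_iff.2 fun y hy => mem_centralizer_singleton_iff.1 (hP₀.le hy)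
  have hmap : ∀ t : D, (centralizer ({t} : Set D)).map D.subtype ≤ centralizer ({t.1} : Set G) := by
    rintro t _ ⟨y, hy, rfl⟩
    exact mem_centralizer_singleton_iff.2 (congrArg Subtype.val (mem_centralizer_singleton_iff.1 hy))
  have hb' : ∀ t t' : D, orderOf t = 2 → orderOf t' = 2 → t ≠ t' → t * t' = t' * t → _ :=
    fun t t' ht ht' hne hc => hb t t' ((orderOf_coe t).trans ht) ((orderOf_coe t').trans ht')
      (fun h => hne (Subtype.ext h)) (congrArg Subtype.val hc)
  obtain ⟨rfl, t, t', ht, ht', hne, htt, hall⟩ := (h.subgroup D).three_invol h2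
    (x := ⟨x, hPD (hP hx)⟩) (mem_center_iff.2 fun g => Subtype.ext (g.2 x hx).symm)
    (fun h => hx1 (congrArg Subtype.val h))
    ((hP₀.isPGroup.comap_of_injective _ D.subtype_injective).to_le (zpowers_le.2 hx))
    (hz ▸ orderOf_dvd_natCard D hzD) (fun R t ht => by
      by_contra! hR
      have := hle t ((orderOf_coe t).trans ht) _ (R.isPGroup'.map D.subtype) ((map_mono
        fun g hg => mem_centralizer_singleton_iff.2 (hR g hg)).trans (hmap t))
      rw [(isSylowIn_map_subtype R).card_eq_card (isSylowIn_of_le P hPD)] at this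
      exact (card_lt_of_lt hlt).not_ge (Nat.le_of_dvd Nat.card_pos this))
    fun t t' ht ht' hne hc h8 => hn (h8.trans (by
      rw [← hb' t t' ht ht' hne hc, ← card_map_of_injective D.subtype_injective]
      exact card_dvd_of_le ((map_inf_le _ _ _).trans (inf_le_inf (hmap t) (hmap t')))))
  have hD : ∀ s : G, s ∈ D ↔ P₀ ≤ centralizer ({s} : Set G) := fun s =>
    mem_centralizer_iff.trans (forall₂_congr fun _ _ => mem_centralizer_singleton_iff.symm)
  refine ⟨rfl, ?_, ?_⟩
  · have hn0 := hb' t t' ht ht' hne htt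
    rw [← hr.out.pow_dvd_iff_le_factorization (hn0 ▸ Nat.card_pos.ne'), ← hP₀.card_eq, ← hn0]
    exact card_dvd_of_le (le_inf ((hD _).1 t.2) ((hD _).1 t'.2))
  let := MulAction.compHom G (MulAut.conj.comp (P : Subgroup G).subtype)
  have h9 := Perm.Derange.dvd_ncard_of_dvd_orbits (G := (P : Subgroup G)) (k := 3 * 3)
    ({s | orderOf s = 2} \ (D : Set G)) (fun g s hs => ⟨((MulAut.conj g.1).orderOf_eq s).trans hs.1,
      fun h => hs.2 (by simpa [mul_assoc] using conj_mem_cj (g := g.1).1 (by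
        rw [cj_eq_of_mem (hPD g.2)]; exact h))⟩) fun s hs => by
      have h5 : centralizer {s} ⊓ (P : Subgroup G) < P₀ := (Solv.PG.le_of_card_dvd_of_isCyclic
        inf_le_right hP (hle s hs.1 _ (P.isPGroup'.to_le inf_le_right) inf_le_left)).lt_of_ne
        fun h => hs.2 ((hD s).2 (h.ge.trans inf_le_left))
      have h6 : ∀ {K Q : Subgroup G}, IsPGroup 3 Q → K < Q → 3 ∣ K.relIndex Q :=
        fun {K Q} hQ hK => by
          by_contra hd
          exact hK.ne' (IsSylowIn.eq_of_le ⟨hK.le, hQ.to_le hK.le, hd⟩ hQ hK.le le_rfl)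
      rw [Nat.card_coe_set_eq, ← MulAction.index_stabilizer, show MulAction.stabilizer (P : Subgroup G) s =
        (centralizer {s}).subgroupOf P from Subgroup.ext fun g => mul_inv_eq_iff_eq_mul.trans
          mem_centralizer_singleton_iff.symm, ← relIndex, ← inf_relIndex_right,
        ← relIndex_mul_relIndex _ _ _ h5.le hP]
      exact mul_dvd_mul (h6 hP₀.isPGroup h5) (h6 P.isPGroup' hlt)
  have h10 : {s | orderOf s = 2} ∩ (D : Set G) = {t.1, t'.1, t.1 * t'.1} := by
    ext s
    refine ⟨fun hs => (hall ⟨s, hs.2⟩ ((orderOf_mk _ _).trans hs.1)).imp (congrArg Subtype.val)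
      (Or.imp (congrArg Subtype.val) (congrArg Subtype.val)), ?_⟩
    rintro (rfl | rfl | rfl)
    exacts [⟨(orderOf_coe t).trans ht, t.2⟩, ⟨(orderOf_coe t').trans ht', t'.2⟩,
      ⟨(orderOf_coe (t * t')).trans (orderOf_mul_eq_two ht ht' hne htt), (t * t').2⟩]
  have h11 := Set.ncard_inter_add_ncard_sdiff_eq_ncard {s : G | orderOf s = 2} D
  rw [h10, Set.ncard_insert_of_notMem (by
    simp [hne, show t' ≠ 1 from fun h => by simp [h] at ht']), Set.ncard_pair (by
    simp [show t ≠ 1 from fun h => by simp [h] at ht])] at h11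
  have h12 : {s : G | orderOf s = 2}.ncard = (centralizer ({z} : Set G)).index := by
    rw [← Local.card_isConj_eq_index, ← Nat.card_coe_set_eq]
    exact Nat.card_congr (Equiv.subtypeEquivRight fun s => ⟨hone s, fun h => by
      obtain ⟨g, rfl⟩ := isConj_iff.1 h
      exact ((MulAut.conj g).orderOf_eq z).trans hz⟩)
  omega

end Cfsg.Lib.Rank2
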